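import Mathlib
import Cfsg.Agent.H893.PPow
import Cfsg.Agent.H380.RC.Rules

/-!
# S3509, affine case (helper384): every element of a primitive group with an abelian normal subgroup `≠ 1`
has a regular cycle
-/

set_option autoImplicit false

namespace Cfsg.Agent.H384.RR

open MulAction Cfsg.Agent.H106.RC

theorem affine {G Ω : Type*} [Group G] [Finite G] [MulAction G Ω] [FaithfulSMul G Ω] [Finite Ω]
    (hp : IsPreprimitive G Ω) (N : Subgroup G) [hNn : N.Normal] (hN : N ≠ ⊥)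
    (hab : ∀ x ∈ N, ∀ y ∈ N, Commute x y) (g : G) :
    ∃ ω : Ω, MulAction.stabilizer (Subgroup.zpowers g) ω = ⊥ := by
  classical
  -- a prime
  obtain ⟨p, hpp, hdvd⟩ := Nat.exists_prime_and_dvd (n := Nat.card N)
    (fun h => hN (Subgroup.card_eq_one.1 h))
  have hpf : Fact p.Prime := ⟨hpp⟩
  let U : Subgroup G :=
    { carrier := {x | x ∈ N ∧ x ^ p = 1}
      mul_mem' := by
        rintro a b ⟨ha, ha'⟩ ⟨hb, hb'⟩
        exact ⟨mul_mem ha hb, by rw [(hab a ha b hb).mul_pow, ha', hb', one_mul]⟩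
      one_mem' := ⟨one_mem _, one_pow _⟩
      inv_mem' := by
        rintro a ⟨ha, ha'⟩
        exact ⟨inv_mem ha, by rw [inv_pow, ha', inv_one]⟩ }
  have hUmem : ∀ x, x ∈ U ↔ x ∈ N ∧ x ^ p = 1 := fun x => Iff.rfl
  have hUn : U.Normal := by
    constructor
    rintro a ⟨ha, ha'⟩ b
    refine ⟨hNn.conj_mem a ha b, ?_⟩
    rw [conj_pow, ha', mul_one, mul_inv_cancel]
  have hU : U ≠ ⊥ := by
    obtain ⟨x, hx⟩ := exists_prime_orderOf_dvd_card' p hdvd
    intro h
    have h1 : (x : G) ∈ U := by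
      refine ⟨x.2, ?_⟩
      rw [← Subgroup.coe_pow, ← hx, pow_orderOf_eq_one, Subgroup.coe_one]
    rw [h, Subgroup.mem_bot] at h1
    have h2 : x = 1 := Subtype.ext h1
    rw [h2, orderOf_one] at hx
    exact hpp.one_lt.ne hx
  obtain ⟨htr, -, -⟩ := Cfsg.Agent.H893.prim_normal hp U hU
  have hpg : IsPGroup p U := by
    rintro ⟨x, hx⟩
    exact ⟨1, Subtype.ext (by rw [pow_one]; exact hx.2)⟩
  by_contra hno
  push Not at hno
  have hno' : ∀ ω : Ω, ¬ RegPt g ω := by
    intro ω h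
    apply hno ω
    rw [eq_bot_iff]
    rintro ⟨z, hz⟩ hz'
    rw [Subgroup.mem_bot]
    exact Subtype.ext (h z hz hz')
  obtain ⟨ι, hι, x, r, hPF, hcov, -, -⟩ := exists_cover hno'
  -- a point
  have hne : Nonempty Ω := by
    by_contra he
    rw [not_nonempty_iff] at he
    apply hU
    rw [eq_bot_iff]
    intro y _
    rw [Subgroup.mem_bot]
    exact FaithfulSMul.eq_of_smul_eq_smul (α := Ω) fun ω => he.elim ω
  obtain ⟨ω⟩ := hne
  obtain ⟨n, hn⟩ := IsPGroup.iff_card.1 hpg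
  have key : ∀ i, ¬ (r i).Coprime (Nat.card U) → r i = p := by
    intro i hi
    by_contra hne
    apply hi
    rw [hn]
    exact Nat.Coprime.pow_right _ ((Nat.coprime_primes (hPF.prime i) hpp).2 hne)
  obtain ⟨i, hi⟩ := Cfsg.Agent.H380.RC.cover_loc (U := U) (ω := ω) hPF.prime hPF.pow hPF.comm
    (fun u _ => hcov (u • ω)) (fun i u hu => hUn.conj_mem u hu (x i))
    (Or.inl ⟨fun u hu v hv => hab u hu.1 v hv.1, fun i j hi hj => hPF.inj ((key i hi).trans (key j hj).symm)⟩)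
  apply hPF.ne i
  apply FaithfulSMul.eq_of_smul_eq_smul (α := Ω)
  intro ω'
  obtain ⟨u, hu⟩ := exists_smul_eq U ω ω'
  rw [one_smul, ← hu]
  exact hi u u.2

end Cfsg.Agent.H384.RR
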