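import Mathlib
import Cfsg.Agent.H106.RC.Defs
import Cfsg.Agent.H660.RR.Defs

/-!
# S3509: the classical row from the statement of S3510 (helper384)
-/

set_option autoImplicit false

namespace Cfsg.Agent.H384.RR

open MulAction Cfsg.Agent.H106.RC Cfsg.Agent.H660.RR

/-- the statement of S3510 -/
def Stmt3510.{u, v} : Prop :=
  ∀ {G : Type u} [Group G] [Finite G] {Ω : Type v} [Fintype Ω] [MulAction G Ω] [FaithfulSMul G Ω]
    (T : Subgroup G) [T.Normal] (_ : IsSimpleGroup T) (_ : ¬ IsMulCommutative T)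
    (_ : Subgroup.centralizer (T : Set G) = ⊥)
    (_ : (Cfsg.IsPSL T ∨ Cfsg.IsPSp T ∨ Cfsg.IsPSU T ∨ Cfsg.IsPOmegaOdd T ∨ Cfsg.IsPOmegaPlus T ∨
      Cfsg.IsPOmegaMinus T))
    (_ : MulAction.IsPreprimitive G Ω) (g : G)
    (_ : ∀ ω : Ω, MulAction.stabilizer (Subgroup.zpowers g) ω ≠ ⊥),
    (Nonempty (T ≃* alternatingGroup (Fin 5)) ∧ Fintype.card Ω = 5) ∨
    (Nonempty (T ≃* alternatingGroup (Fin 6)) ∧ Fintype.card Ω = 6) ∨
    (Nonempty (T ≃* alternatingGroup (Fin 8)) ∧ Fintype.card Ω = 8)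

/-- a normal subgroup isomorphic to `A_n` acting faithfully on `n` points -/
theorem kset_of_alt {G Ω : Type*} [Group G] [MulAction G Ω] [FaithfulSMul G Ω] [Fintype Ω]
    (T : Subgroup G) {n : ℕ} (hn : 5 ≤ n) (e : T ≃* alternatingGroup (Fin n))
    (hc : Fintype.card Ω = n) : KSet (Ω := Ω) T := by
  classical
  let f : Ω ≃ Fin n := Fintype.equivFinOfCardEq hc
  have hcard : ∀ ω : Ω, ({f ω} : Finset (Fin n)).card = 1 := fun ω => Finset.card_singleton _
  let E : Ω ≃ {s : Finset (Fin n) // s.card = 1} :=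
    Equiv.ofBijective (fun ω => ⟨{f ω}, hcard ω⟩) ⟨fun a b h => by
      have h1 := congrArg Subtype.val h
      exact f.injective (Finset.singleton_injective h1), fun s => by
      obtain ⟨a, ha⟩ := Finset.card_eq_one.1 s.2
      exact ⟨f.symm a, Subtype.ext (by rw [ha]; change {f (f.symm a)} = _; rw [Equiv.apply_symm_apply])⟩⟩
  have hE : ∀ ω, (E ω).1 = {f ω} := fun ω => rfl
  -- the permutation representation
  let φ : G →* Equiv.Perm (Fin n) := (f.permCongrHom).toMonoidHom.comp (MulAction.toPermHom G Ω)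
  have hφ : ∀ (x : G) (ω : Ω), φ x (f ω) = f (x • ω) := by
    intro x ω
    change f ((MulAction.toPermHom G Ω x) (f.symm (f ω))) = _
    rw [Equiv.symm_apply_apply]
    rfl
  have hmap : ∀ (x : G) (ω : Ω), (E (x • ω)).1 = (E ω).1.map (φ x).toEmbedding := by
    intro x ω
    rw [hE, hE, Finset.map_singleton, Equiv.coe_toEmbedding, hφ]
  refine ⟨n, 1, hn, le_rfl, E, fun x => ⟨φ x, hmap x⟩, ?_⟩
  -- `T` induces `Alt`
  let ψ : T →* Equiv.Perm (Fin n) := φ.comp T.subtype
  have hinj : Function.Injective ψ := by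
    rw [injective_iff_map_eq_one]
    intro t ht
    apply Subtype.ext
    apply FaithfulSMul.eq_of_smul_eq_smul (α := Ω)
    intro ω
    apply f.injective
    rw [← hφ]
    change ψ t (f ω) = _
    rw [ht, Subgroup.coe_one, one_smul]
    rfl
  have hc1 : Nat.card ψ.range = Nat.card (alternatingGroup (Fin n)) := by
    rw [← Nat.card_congr e.toEquiv]
    exact (Nat.card_congr (MonoidHom.ofInjective hinj).toEquiv).symm
  have hnt : Nontrivial (Fin n) := Fin.nontrivial_iff_two_le.2 (by omega)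
  have hc2 : 2 * Nat.card (alternatingGroup (Fin n)) = Nat.card (Equiv.Perm (Fin n)) := by
    rw [Nat.card_eq_fintype_card, Nat.card_eq_fintype_card]
    exact two_mul_card_alternatingGroup
  have hidx : ψ.range.index = 2 := by
    have h1 := Subgroup.card_mul_index ψ.range
    rw [hc1, ← hc2, mul_comm] at h1
    exact Nat.eq_of_mul_eq_mul_right Nat.card_pos h1
  have hr : ψ.range = alternatingGroup (Fin n) := Equiv.Perm.eq_alternatingGroup_of_index_eq_two hidx
  intro τ hτ
  rw [← hr] at hτ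
  obtain ⟨t, ht⟩ := hτ
  refine ⟨t, t.2, fun ω => ?_⟩
  rw [hmap]
  congr 1
  exact congrArg Equiv.toEmbedding ht

/-- **the classical row** of S3509 -/
theorem classical_row (h : Stmt3510.{0, 0}) : ASRow (fun T _ => Cl T) := by
  intro G Ω _ _ _ _ _ hp T _ hT hTn hC hcl g
  classical
  have := Fintype.ofFinite Ω
  by_cases hg : ∃ ω : Ω, stabilizer (Subgroup.zpowers g) ω = ⊥
  · exact Or.inl hg
  right
  push Not at hg
  have hTc : ¬ IsMulCommutative T := by
    intro hc
    obtain ⟨a, b, hab⟩ := hTn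
    exact hab (hc.is_comm.comm a b)
  rcases h T hT hTc hC hcl hp g hg with ⟨⟨e⟩, hc⟩ | ⟨⟨e⟩, hc⟩ | ⟨⟨e⟩, hc⟩
  · exact kset_of_alt T (by norm_num) e hc
  · exact kset_of_alt T (by norm_num) e hc
  · exact kset_of_alt T (by norm_num) e hc

end Cfsg.Agent.H384.RR
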